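import Cfsg.Agent.H308.ClsSet
import Cfsg.Agent.H527.RC.Stmts

/-!
# S4191, COLP: `Col p 2` for `p ≥ 5` (helper991)

A solvable primitive group of degree prime to `p ≥ 5` has a set `Γ` stabilised by no element of order `p`, with
`2 |Γ| ≠ n`.
-/

set_option autoImplicit false

namespace Cfsg.Agent.H991.RC

open scoped Pointwise
open MulAction Cfsg.Agent.H308.ClsSet Cfsg.Agent.H527.RC

universe u

/-! ### numbers -/

theorem choose_half_le {n : ℕ} (hn : 1 ≤ n) : n.choose (n / 2) ≤ 2 ^ (n - 1) := by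
  obtain ⟨k, hk | hk⟩ : ∃ k, n = 2 * k + 1 ∨ n = 2 * k + 2 := ⟨(n - 1) / 2, by omega⟩
  · rw [hk, show (2 * k + 1) / 2 = k by omega, show 2 * k + 1 - 1 = 2 * k by omega, pow_mul]
    exact (Nat.choose_middle_le_pow k).trans (by norm_num)
  · rw [hk, show (2 * k + 2) / 2 = k + 1 by omega, show 2 * k + 2 - 1 = 2 * k + 1 by omega]
    have h1 : (2 * k + 2).choose (k + 1) = (2 * k + 1).choose k + (2 * k + 1).choose (k + 1) :=
      Nat.choose_succ_succ (2 * k + 1) k
    have h2 : (2 * k + 1).choose (k + 1) = (2 * k + 1).choose k := by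
      rw [← Nat.choose_symm (show k ≤ 2 * k + 1 by omega)]
      congr 1
      omega
    have h3 := Nat.choose_middle_le_pow k
    rw [h1, h2, pow_succ, pow_mul]
    norm_num at h3 ⊢
    omega

/-- half of the subsets do not have half of the points -/
theorem card_ne_half (Ω : Type*) [Finite Ω] [Nonempty Ω] :
    2 ^ Nat.card Ω ≤ 2 * Nat.card {Γ : Set Ω // 2 * Γ.ncard ≠ Nat.card Ω} := by
  classical
  have := Fintype.ofFinite Ω
  set n := Nat.card Ω with hn
  have hn1 : 1 ≤ n := Nat.card_pos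
  have h1 : Nat.card {Γ : Set Ω // 2 * Γ.ncard = n} ≤ 2 ^ (n - 1) := by
    refine le_trans ?_ (choose_half_le hn1)
    have h2 : (Finset.powersetCard (n / 2) (Finset.univ : Finset Ω)).card = n.choose (n / 2) := by
      rw [Finset.card_powersetCard, Finset.card_univ, hn, Nat.card_eq_fintype_card]
    rw [← h2, ← Fintype.card_coe, ← Nat.card_eq_fintype_card]
    refine Nat.card_le_card_of_injective (fun Γ : {Γ : Set Ω // 2 * Γ.ncard = n} =>
      (⟨Γ.1.toFinset, ?_⟩ : {x // x ∈ Finset.powersetCard (n / 2) (Finset.univ : Finset Ω)})) ?_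
    · rw [Finset.mem_powersetCard]
      refine ⟨Finset.subset_univ _, ?_⟩
      have h3 := Γ.2
      rw [Set.ncard_eq_toFinset_card'] at h3
      omega
    · intro Γ Γ' h
      apply Subtype.ext
      have h3 := congrArg Subtype.val h
      exact Set.toFinset_inj.1 h3
  have h2 : Nat.card {Γ : Set Ω // 2 * Γ.ncard = n} + Nat.card {Γ : Set Ω // 2 * Γ.ncard ≠ n} = 2 ^ n := by
    have h3 : Nat.card (Set Ω) = 2 ^ n := by
      rw [hn, Nat.card_eq_fintype_card, Nat.card_eq_fintype_card, Fintype.card_set]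
    rw [← h3, ← Nat.card_sum]
    exact Nat.card_congr (Equiv.sumCompl fun Γ : Set Ω => 2 * Γ.ncard = n)
  have h3 : 2 ^ n = 2 * 2 ^ (n - 1) := by
    rw [← pow_succ']
    congr 1
    omega
  omega

section

variable {G Ω : Type*} [Group G] [Finite G] [Finite Ω] [Nontrivial Ω] [MulAction G Ω]
  [FaithfulSMul G Ω]

variable {N : Subgroup G} (R : Reg (Ω := Ω) N)
include R

omit [Finite G] in
/-- The number of fixed points, precise form. -/
theorem card_fixed' {g : G} {p : ℕ} (hp : p.Prime) (hg : orderOf g = p)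
    (hn : ¬ p ∣ Nat.card Ω) : ∃ m, Nat.card Ω = Nat.card (fixedBy Ω g) * m ∧ m ≡ 1 [MOD p] ∧ p + 1 ≤ m := by
  have : Fact p.Prime := ⟨hp⟩
  have hP : IsPGroup p (Subgroup.zpowers g) := IsPGroup.of_card (n := 1) (by
    rw [Nat.card_zpowers, hg, pow_one])
  have hfix : ∀ a : Ω, a ∈ fixedPoints (Subgroup.zpowers g) Ω ↔ g • a = a := by
    intro a
    constructor
    · intro h
      exact h ⟨g, Subgroup.mem_zpowers g⟩
    · rintro h ⟨x, k, rfl⟩
      have h1 : g ∈ stabilizer G a := h
      exact (stabilizer G a).zpow_mem h1 k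
  obtain ⟨a, ha⟩ := hP.nonempty_fixed_point_of_prime_not_dvd_card Ω hn
  rw [hfix] at ha
  have h1 : Nat.card (fixedBy Ω g) = Nat.card (N ⊓ Subgroup.centralizer ({g} : Set G) : Subgroup G) := by
    refine (Nat.card_congr (Equiv.ofBijective
      (fun x : (N ⊓ Subgroup.centralizer ({g} : Set G) : Subgroup G) =>
        (⟨(x : G) • a, ?_⟩ : fixedBy Ω g)) ⟨fun x y h => ?_, fun b => ?_⟩)).symm
    · rw [mem_fixedBy, ← mul_smul]
      have := Subgroup.mem_centralizer_singleton_iff.1 x.2.2
      rw [← this, mul_smul, ha]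
    · exact Subtype.ext (R.inj x.2.1 y.2.1 (congrArg Subtype.val h))
    · obtain ⟨x, hx, h⟩ := R.trans a b
      refine ⟨⟨x, hx, Subgroup.mem_centralizer_singleton_iff.2 ?_⟩, Subtype.ext h⟩
      exact (R.comm_of_fix hx ha (by rw [h]; exact b.2)).symm
  have h2 : Nat.card (fixedBy Ω g) ∣ Nat.card Ω := by
    rw [h1, ← R.card]
    exact Subgroup.card_dvd_of_le inf_le_left
  obtain ⟨m, hm⟩ := h2
  have h3 : Nat.card Ω ≡ Nat.card (fixedBy Ω g) [MOD p] := by
    have h4 := hP.card_modEq_card_fixedPoints Ω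
    have h5 : Nat.card (fixedPoints (Subgroup.zpowers g) Ω) = Nat.card (fixedBy Ω g) :=
      Nat.card_congr (Equiv.subtypeEquivRight hfix)
    rwa [h5] at h4
  have hpf : ¬ p ∣ Nat.card (fixedBy Ω g) := fun h => hn (by rw [hm]; exact Dvd.dvd.mul_right h m)
  have h6 : m ≡ 1 [MOD p] := by
    have h7 : Nat.card (fixedBy Ω g) * m ≡ Nat.card (fixedBy Ω g) * 1 [MOD p] := by
      rw [← hm, mul_one]; exact h3
    exact Nat.ModEq.cancel_left_of_coprime ((Nat.Prime.coprime_iff_not_dvd hp).2 hpf) h7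
  refine ⟨m, hm, h6, ?_⟩
  have h8 := R.card_fixed hp hg hn
  rw [hm, mul_comm] at h8
  refine Nat.le_of_mul_le_mul_left h8 (Nat.pos_of_ne_zero fun h0 => ?_)
  rw [h0, zero_mul] at hm
  exact Nat.card_pos.ne' hm

/-- the degree is a prime power -/
theorem prime_unique [IsPreprimitive G Ω] {q q' : ℕ} (hq : q.Prime) (hq' : q'.Prime) (h : q ∣ Nat.card Ω)
    (h' : q' ∣ Nat.card Ω) : q = q' := by
  have hN := R.normal
  have hfq : Fact q.Prime := ⟨hq⟩
  have hfq' : Fact q'.Prime := ⟨hq'⟩
  let T : Subgroup G :=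
    { carrier := {x | x ∈ N ∧ x ^ q = 1}
      one_mem' := ⟨N.one_mem, one_pow q⟩
      mul_mem' := by
        rintro x y ⟨hx, hx'⟩ ⟨hy, hy'⟩
        refine ⟨N.mul_mem hx hy, ?_⟩
        have hc : Commute x y := R.comm x hx y hy
        rw [hc.mul_pow, hx', hy', one_mul]
      inv_mem' := by
        rintro x ⟨hx, hx'⟩
        exact ⟨N.inv_mem hx, by rw [inv_pow, hx', inv_one]⟩ }
  have hT : T.Normal := ⟨fun x hx g => ⟨hN.conj_mem x hx.1 g, by rw [conj_pow, hx.2]; group⟩⟩
  have hTN : T ≤ N := fun x hx => hx.1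
  obtain ⟨x, hx⟩ := exists_prime_orderOf_dvd_card' (G := N) q (by rw [R.card]; exact h)
  have hxT : (x : G) ∈ T := ⟨x.2, by
    have := pow_orderOf_eq_one x
    rw [hx] at this
    exact congrArg Subtype.val this⟩
  have h4 : fixedPoints T Ω ≠ Set.univ := by
    intro hu
    have h1 : x = 1 := by
      apply Subtype.ext
      apply FaithfulSMul.eq_of_smul_eq_smul (α := Ω)
      intro a
      have : a ∈ fixedPoints T Ω := by rw [hu]; trivial
      have h2 : ((x : G)) • a = a := this ⟨x, hxT⟩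
      rw [h2, Subgroup.coe_one, one_smul]
    rw [h1, orderOf_one] at hx
    exact hq.one_lt.ne hx
  have h5 : IsPretransitive T Ω := IsQuasiPreprimitive.isPretransitive_of_normal h4
  obtain ⟨y, hy⟩ := exists_prime_orderOf_dvd_card' (G := N) q' (by rw [R.card]; exact h')
  obtain ⟨a, -⟩ := exists_pair_ne Ω
  obtain ⟨t, ht⟩ := exists_smul_eq T a ((y : G) • a)
  have h6 : (t : G) = y := R.inj (hTN t.2) y.2 ht
  have h7 : y ^ q = 1 := by
    apply Subtype.ext
    have := t.2.2
    rw [h6] at this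
    exact this
  have h8 := orderOf_dvd_of_pow_eq_one h7
  rw [hy] at h8
  exact ((Nat.prime_dvd_prime_iff_eq hq' hq).1 h8).symm

/-- small degrees: few fixed points -/
theorem few_fixed [IsPreprimitive G Ω] (hsmall : Nat.card Ω < 64) {g : G} {p : ℕ} (hp : p.Prime) (h5 : 5 ≤ p)
    (hg : orderOf g = p) (hn : ¬ p ∣ Nat.card Ω) : Nat.card (fixedBy Ω g) < p - 1 := by
  obtain ⟨m, hm, hm1, hmp⟩ := card_fixed' R hp hg hn
  by_contra hcon
  push Not at hcon
  have huniq := @prime_unique G Ω _ _ _ _ _ _ N R _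
  set f := Nat.card (fixedBy Ω g) with hf
  set n := Nat.card Ω with hn'
  have hnf : ¬ p ∣ f := fun h => hn (by rw [hm]; exact h.mul_right m)
  have hp8 : p ≤ 8 := by
    by_contra h
    have h1 : 8 * 10 ≤ f * m := Nat.mul_le_mul (by omega) (by omega)
    omega
  have hm15 : m < 16 := by
    by_contra h
    have h1 : 4 * 16 ≤ f * m := Nat.mul_le_mul (by omega) (by omega)
    omega
  have hf10 : f < 11 := by
    by_contra h
    have h1 : 11 * 6 ≤ f * m := Nat.mul_le_mul (by omega) (by omega)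
    omega
  have hm1' : m % p = 1 % p := hm1
  have h23 : ¬ (2 ∣ n ∧ 3 ∣ n) := fun h => by
    have := huniq Nat.prime_two Nat.prime_three h.1 h.2
    omega
  have h211 : ¬ (2 ∣ n ∧ 11 ∣ n) := fun h => by
    have := huniq Nat.prime_two (by norm_num : Nat.Prime 11) h.1 h.2
    omega
  interval_cases p
  · -- p = 5
    have h6 : m = 6 ∨ m = 11 := by omega
    rcases h6 with rfl | rfl
    · exact h23 ⟨by omega, by omega⟩
    · have h7 : f = 4 ∨ f = 5 := by omega
      rcases h7 with h7 | h7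
      · exact h211 ⟨by omega, by omega⟩
      · exact hnf (by omega)
  · norm_num at hp
  · have h6 : m = 8 := by
      by_contra h
      have h1 : 6 * 15 ≤ f * m := Nat.mul_le_mul (by omega) (by omega)
      omega
    subst h6
    have h7 : f = 6 ∨ f = 7 := by omega
    rcases h7 with h7 | h7
    · exact h23 ⟨by omega, by omega⟩
    · exact hnf (by omega)
  · norm_num at hp

end

/-- **faithful groups** -/
theorem faithful {G Ω : Type u} [Group G] [Finite G] [Group.IsSolvable G] [MulAction G Ω] [FaithfulSMul G Ω]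
    [Finite Ω] [Nontrivial Ω] [IsPreprimitive G Ω] {p : ℕ} (hp : p.Prime) (h5 : 5 ≤ p)
    (hn : ¬ p ∣ Nat.card Ω) :
    ∃ Γ : Set Ω, (∀ g : G, orderOf g = p → g • Γ ≠ Γ) ∧ 2 * Γ.ncard ≠ Nat.card Ω := by
  classical
  obtain ⟨N, hN1, hN2, hN3⟩ := exists_normal (G := G) (Ω := Ω)
  have R : Reg (Ω := Ω) N := ⟨hN1, hN2, hN3⟩
  by_cases hbig : 64 ≤ Nat.card Ω
  · by_contra hcon
    push Not at hcon
    have hall : ∀ Γ : {Γ : Set Ω // 2 * Γ.ncard ≠ Nat.card Ω}, ∃ g : G, orderOf g = p ∧ g • Γ.1 = Γ.1 := by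
      intro Γ
      by_contra h
      push Not at h
      exact Γ.2 (hcon Γ.1 h)
    choose f hf1 hf2 using hall
    obtain ⟨B, k, -, hBk, hk, hB⟩ := R.exists_base 2 (fun p hp _ => hp.two_le)
    have hG : Nat.card G ≤ Nat.card Ω ^ (k + 1) := by
      have h1 : Nat.card G ≤ Nat.card (B → Ω) := by
        refine Nat.card_le_card_of_injective (fun g : G => fun b : B => g • (b : Ω)) ?_
        intro g h hgh
        have h2 : h⁻¹ * g = 1 := hB _ fun b hb => by
          have := congrFun hgh ⟨b, hb⟩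
          rw [mul_smul, inv_smul_eq_iff]
          exact this
        exact (inv_mul_eq_one.1 h2).symm
      rw [Nat.card_fun, Nat.card_eq_fintype_card (α := B), Fintype.card_coe] at h1
      exact h1.trans (Nat.pow_le_pow_right Nat.card_pos hBk)
    have hcount : 2 * Nat.card {Γ : Set Ω // 2 * Γ.ncard ≠ Nat.card Ω} ≤
        Nat.card G * 2 ^ (Nat.card Ω / 3) := by
      have := Fintype.ofFinite Ω
      have := Fintype.ofFinite G
      have hinv : ∀ Γ, orderOf (f Γ)⁻¹ = p := fun Γ => by rw [orderOf_inv, hf1]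
      have hinv2 : ∀ Γ, (f Γ)⁻¹ • Γ.1 = Γ.1 := fun Γ => by
        rw [inv_smul_eq_iff]
        exact (hf2 Γ).symm
      have hne : ∀ Γ, (f Γ)⁻¹ ≠ f Γ := by
        intro Γ h
        have h1 : f Γ ^ 2 = 1 := by
          rw [pow_two]
          nth_rewrite 1 [← h]
          exact inv_mul_cancel _
        have h2 := orderOf_dvd_of_pow_eq_one h1
        rw [hf1] at h2
        have := Nat.le_of_dvd (by norm_num) h2
        omega
      have h0 : 2 * Nat.card {Γ : Set Ω // 2 * Γ.ncard ≠ Nat.card Ω} =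
          Nat.card (Bool × {Γ : Set Ω // 2 * Γ.ncard ≠ Nat.card Ω}) := by
        rw [Nat.card_prod, Nat.card_eq_fintype_card (α := Bool), Fintype.card_bool]
      rw [h0]
      have h2 : Nat.card (Bool × {Γ : Set Ω // 2 * Γ.ncard ≠ Nat.card Ω}) ≤
          Nat.card (Σ g : {g : G // orderOf g = p}, {Γ : Set Ω // (g : G) • Γ = Γ}) := by
        refine Nat.card_le_card_of_injective
          (fun x : Bool × {Γ : Set Ω // 2 * Γ.ncard ≠ Nat.card Ω} =>
            (if x.1 then ⟨⟨f x.2, hf1 x.2⟩, ⟨x.2.1, hf2 x.2⟩⟩ else ⟨⟨(f x.2)⁻¹, hinv x.2⟩, ⟨x.2.1, hinv2 x.2⟩⟩ :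
            Σ g : {g : G // orderOf g = p}, {Γ : Set Ω // (g : G) • Γ = Γ})) ?_
        rintro ⟨b, Γ⟩ ⟨b', Γ'⟩ h
        have h3 := congrArg (fun x : (Σ g : {g : G // orderOf g = p},
          {Γ : Set Ω // (g : G) • Γ = Γ}) => (x.2 : Set Ω)) h
        have h4 := congrArg (fun x : (Σ g : {g : G // orderOf g = p},
          {Γ : Set Ω // (g : G) • Γ = Γ}) => (x.1 : G)) h
        have h5 : Γ = Γ' := by
          apply Subtype.ext
          cases b <;> cases b' <;> simpa using h3
        subst h5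
        cases b <;> cases b'
        · rfl
        · exact absurd (by simpa using h4) (hne Γ)
        · exact absurd (by simpa using h4.symm) (hne Γ)
        · rfl
      refine h2.trans ?_
      rw [Nat.card_sigma]
      refine (Finset.sum_le_card_nsmul _ _ (2 ^ (Nat.card Ω / 3)) fun g _ => ?_).trans ?_
      · refine (card_stab_le (g : G)).trans (Nat.pow_le_pow_right (by norm_num) ?_)
        have := R.card_orbits hp h5 g.2 hn
        omega
      · rw [smul_eq_mul]
        refine Nat.mul_le_mul_right _ ?_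
        rw [Finset.card_univ, Nat.card_eq_fintype_card]
        exact Fintype.card_subtype_le _
    have := num_big hbig hk
    have h9 := Nat.mul_le_mul_right (2 ^ (Nat.card Ω / 3)) hG
    have h10 := card_ne_half Ω
    omega
  · push Not at hbig
    by_cases hex : ∃ g : G, orderOf g = p
    · obtain ⟨g₀, hg₀⟩ := hex
      obtain ⟨m, hm, hm1, hmp⟩ := card_fixed' R hp hg₀ hn
      have hf0 : Nat.card (fixedBy Ω g₀) ≠ 0 := fun h0 => by
        rw [h0, zero_mul] at hm
        exact Nat.card_pos.ne' hm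
      have hle : p - 1 ≤ Nat.card Ω := by
        rw [hm]
        calc p - 1 ≤ 1 * m := by omega
          _ ≤ _ := Nat.mul_le_mul_right m (by omega)
      have := Fintype.ofFinite Ω
      obtain ⟨B, -, hB⟩ := Finset.exists_subset_card_eq (s := (Finset.univ : Finset Ω)) (n := p - 1) (by
        rw [Finset.card_univ, ← Nat.card_eq_fintype_card]; exact hle)
      refine ⟨(B : Set Ω), fun g hg h => ?_, ?_⟩
      · have h1 : ∀ b ∈ B, g • b = b := fun b hb =>
          fix_of_small hp (by rw [← hg]; exact pow_orderOf_eq_one g) B (fun x hx => by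
            have : g • x ∈ g • (B : Set Ω) := Set.smul_mem_smul_set hx
            rw [h] at this
            exact this) (by omega) hb
        have h2 : p - 1 ≤ Nat.card (fixedBy Ω g) := by
          rw [← hB, ← Fintype.card_coe, ← Nat.card_eq_fintype_card]
          exact Nat.card_le_card_of_injective (fun b : {x // x ∈ B} => (⟨b.1, h1 b.1 b.2⟩ : fixedBy Ω g))
            (fun b b' hb => Subtype.ext (congrArg (fun x : fixedBy Ω g => (x : Ω)) hb))
        have h3 := few_fixed R hbig hp h5 hg hn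
        omega
      · rw [Set.ncard_coe_finset, hB]
        intro he
        rw [hm] at he
        by_cases hf1 : Nat.card (fixedBy Ω g₀) = 1
        · rw [hf1, one_mul] at he
          rw [← he] at hm1
          have h1 : 2 * (p - 1) + 2 ≡ 1 + 2 [MOD p] := hm1.add_right 2
          have h2 : 2 * (p - 1) + 2 = 2 * p := by omega
          rw [h2] at h1
          have h3 : 2 * p ≡ 0 [MOD p] := (Nat.modEq_zero_iff_dvd).2 (dvd_mul_left p 2)
          have h4 : p ∣ 3 := (Nat.modEq_zero_iff_dvd).1 (h1.symm.trans h3)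
          have := Nat.le_of_dvd (by norm_num) h4
          omega
        · have h1 : 2 * m ≤ Nat.card (fixedBy Ω g₀) * m := Nat.mul_le_mul_right m (by omega)
          omega
    · push Not at hex
      refine ⟨∅, fun g hg => absurd hg (hex g), ?_⟩
      rw [Set.ncard_empty, mul_zero]
      exact Nat.card_pos.ne

/-- **COLP** -/
theorem col_ge {p : ℕ} (hp : p.Prime) (h5 : 5 ≤ p) : Col.{u} p 2 := by
  intro H Δ _ _ _ _ _ _ hprim hn
  classical
  have := hprim
  let G := (MulAction.toPermHom H Δ).range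
  have hfin : Finite G := inferInstance
  have hsol : Group.IsSolvable G :=
    Group.isSolvable_of_surjective (f := (MulAction.toPermHom H Δ).rangeRestrict)
      (MulAction.toPermHom H Δ).rangeRestrict_surjective
  have hsm : ∀ (h : H) (δ : Δ), ((MulAction.toPermHom H Δ).rangeRestrict h) • δ = h • δ := fun h δ => rfl
  have hpG : IsPreprimitive G Δ := by
    let φ : H → G := (MulAction.toPermHom H Δ).rangeRestrict
    let F : Δ →ₑ[φ] Δ := { toFun := id, map_smul' := fun h δ => rfl }
    exact IsPreprimitive.of_surjective (f := F) Function.surjective_id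
  obtain ⟨Γ, hΓ, hc⟩ := faithful (G := G) (Ω := Δ) hp h5 hn
  have hfp : Fact p.Prime := ⟨hp⟩
  refine ⟨fun δ => if δ ∈ Γ then 0 else 1, ?_, 0, 1, ?_⟩
  · rintro y ⟨k, hk⟩ hy δ
    set g : G := (MulAction.toPermHom H Δ).rangeRestrict y with hg
    have hgp : g ^ p ^ k = 1 := by rw [hg, ← map_pow, hk, map_one]
    have hgΓ : g ∈ stabilizer G Γ := by
      have key : ∀ δ, g • δ ∈ Γ ↔ δ ∈ Γ := by
        intro δ
        have h1 := hy δ
        change (if y • δ ∈ Γ then (0 : Fin 2) else 1) = if δ ∈ Γ then 0 else 1 at h1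
        change y • δ ∈ Γ ↔ δ ∈ Γ
        by_cases h2 : y • δ ∈ Γ <;> by_cases h3 : δ ∈ Γ
        · exact ⟨fun _ => h3, fun _ => h2⟩
        · rw [if_pos h2, if_neg h3] at h1
          exact absurd h1 (by decide)
        · rw [if_neg h2, if_pos h3] at h1
          exact absurd h1 (by decide)
        · exact ⟨fun h => absurd h h2, fun h => absurd h h3⟩
      rw [mem_stabilizer_iff]
      ext δ
      rw [Set.mem_smul_set_iff_inv_smul_mem]
      have := key (g⁻¹ • δ)
      rw [smul_inv_smul] at this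
      exact this.symm
    have h1 : g = 1 := by
      by_contra hne
      obtain ⟨j, -, hj⟩ := (Nat.dvd_prime_pow hp).1 (orderOf_dvd_of_pow_eq_one hgp)
      have hj0 : j ≠ 0 := by
        rintro rfl
        rw [pow_zero, orderOf_eq_one_iff] at hj
        exact hne hj
      obtain ⟨i, rfl⟩ := Nat.exists_eq_succ_of_ne_zero hj0
      refine hΓ (g ^ p ^ i) ?_ ?_
      · rw [orderOf_pow_of_dvd (pow_ne_zero i hp.ne_zero) (by rw [hj]; exact pow_dvd_pow p (Nat.le_succ i)), hj,
          Nat.succ_eq_add_one, pow_succ, Nat.mul_div_cancel_left _ (pow_pos hp.pos i)]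
      · exact (stabilizer G Γ).pow_mem hgΓ _
    rw [← hsm, ← hg, h1, one_smul]
  · intro h
    apply hc
    have e0 : Nat.card {δ // (fun δ => if δ ∈ Γ then (0 : Fin 2) else 1) δ = 0} = Γ.ncard := by
      rw [← Nat.card_coe_set_eq]
      refine Nat.card_congr (Equiv.subtypeEquivRight fun δ => ?_)
      by_cases h1 : δ ∈ Γ <;> simp [h1]
    have e1 : Nat.card {δ // (fun δ => if δ ∈ Γ then (0 : Fin 2) else 1) δ = 1} = Γᶜ.ncard := by
      rw [← Nat.card_coe_set_eq]
      refine Nat.card_congr (Equiv.subtypeEquivRight fun δ => ?_)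
      by_cases h1 : δ ∈ Γ <;> simp [h1]
    rw [e0, e1] at h
    have h2 := Set.ncard_add_ncard_compl Γ
    rw [← h] at h2
    omega

end Cfsg.Agent.H991.RC
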