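import Mathlib
import Cfsg.Agent.Lib.ElemAbGL

/-!
# S4191, PLIN2: the 2-part of the order of `GL_{2m}(q)`, `q` odd (helper991, proof by helper675)

`ν₂(|Aut(X)|) ≤ 2 (q ^ m - 1)` for `X` elementary abelian of order `q ^ (2 m)`, `m ≥ 1`, `q` an odd prime.
-/

set_option autoImplicit false

namespace Cfsg.Agent.H991.RC

/-- `∏_{j = 1}^{n} (q ^ j - 1)` -/
def PP (q n : ℕ) : ℕ := ∏ j ∈ Finset.range n, (q ^ (j + 1) - 1)

theorem pp_pos {q : ℕ} (hq : 3 ≤ q) (n : ℕ) : 0 < PP q n := by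
  apply Finset.prod_pos
  intro j _
  have : 1 < q ^ (j + 1) := Nat.one_lt_pow (by omega) (by omega)
  omega

/-- `k² (k + 2) ≤ 4 ^ k` -/
theorem cube_le (j : ℕ) : (j + 2) * (j + 2) * (j + 4) ≤ 4 ^ (j + 2) := by
  induction j with
  | zero => norm_num
  | succ j ih =>
    rw [show j + 1 + 2 = (j + 2) + 1 by ring, pow_succ]
    nlinarith [ih, Nat.zero_le (j ^ 3), Nat.zero_le (j ^ 2), Nat.zero_le j]

theorem fifth_le (j : ℕ) : (j + 3) ^ 5 ≤ 16 ^ (j + 2) := by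
  induction j with
  | zero => norm_num
  | succ j ih =>
    have h1 : (j + 1 + 3) ^ 5 ≤ 16 * (j + 3) ^ 5 := by
      nlinarith [Nat.zero_le (j ^ 5), Nat.zero_le (j ^ 4), Nat.zero_le (j ^ 3), Nat.zero_le (j ^ 2), Nat.zero_le j]
    calc (j + 1 + 3) ^ 5 ≤ 16 * (j + 3) ^ 5 := h1
      _ ≤ 16 * 16 ^ (j + 2) := Nat.mul_le_mul_left _ ih
      _ = 16 ^ (j + 1 + 2) := by rw [← pow_succ']

theorem five_pow_le {q : ℕ} (hq : 3 ≤ q) : ∀ m, 1 ≤ m → 8 * m + 6 ≤ 5 * q ^ m := by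
  intro m hm
  induction m, hm using Nat.le_induction with
  | base => rw [pow_one]; omega
  | succ m hm ih =>
    rw [pow_succ]
    nlinarith [ih]

theorem step_le {q : ℕ} (hq : 3 ≤ q) {m : ℕ} (hm : 1 ≤ m) : q ^ (4 * m + 3) ≤ 4 ^ ((q - 1) * q ^ m) := by
  obtain ⟨j, rfl⟩ : ∃ j, q = j + 3 := ⟨q - 3, by omega⟩
  have h1 : j + 3 - 1 = j + 2 := by omega
  rw [h1]
  have h2 : (((j + 3) ^ (4 * m + 3)) ^ 2) ≤ (4 ^ ((j + 2) * (j + 3) ^ m)) ^ 2 := by
    calc ((j + 3) ^ (4 * m + 3)) ^ 2 = (j + 3) ^ (8 * m + 6) := by rw [← pow_mul]; congr 1; ring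
      _ ≤ (j + 3) ^ (5 * (j + 3) ^ m) := Nat.pow_le_pow_right (by omega) (five_pow_le hq m hm)
      _ = ((j + 3) ^ 5) ^ ((j + 3) ^ m) := by rw [pow_mul]
      _ ≤ (16 ^ (j + 2)) ^ ((j + 3) ^ m) := Nat.pow_le_pow_left (fifth_le j) _
      _ = (4 ^ ((j + 2) * (j + 3) ^ m)) ^ 2 := by
        rw [← pow_mul, ← pow_mul, show (16 : ℕ) = 4 ^ 2 by norm_num, ← pow_mul]
        congr 1
        ring
  exact (Nat.pow_le_pow_iff_left two_ne_zero).1 h2

theorem pp_le {q : ℕ} (hq : 3 ≤ q) : ∀ m, 1 ≤ m → PP q (2 * m) ≤ 4 ^ (q ^ m - 1) := by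
  intro m hm
  induction m, hm using Nat.le_induction with
  | base =>
    obtain ⟨j, rfl⟩ : ∃ j, q = j + 3 := ⟨q - 3, by omega⟩
    have h := cube_le j
    rw [PP, mul_one, Finset.prod_range_succ, Finset.prod_range_succ, Finset.prod_range_zero, one_mul, zero_add, pow_one]
    have h1 : j + 3 - 1 = j + 2 := by omega
    have h2 : (j + 3) ^ (1 + 1) - 1 = (j + 2) * (j + 4) := by
      have : (j + 3) ^ (1 + 1) = (j + 2) * (j + 4) + 1 := by ring
      omega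
    rw [h1, h2, ← mul_assoc]
    exact h
  | succ m hm ih =>
    have h1 : PP q (2 * (m + 1)) = PP q (2 * m) * ((q ^ (2 * m + 1) - 1) * (q ^ (2 * m + 2) - 1)) := by
      rw [show 2 * (m + 1) = 2 * m + 1 + 1 by ring, PP, PP, Finset.prod_range_succ, Finset.prod_range_succ, mul_assoc]
    have h2 : (q ^ (2 * m + 1) - 1) * (q ^ (2 * m + 2) - 1) ≤ q ^ (4 * m + 3) := by
      calc (q ^ (2 * m + 1) - 1) * (q ^ (2 * m + 2) - 1) ≤ q ^ (2 * m + 1) * q ^ (2 * m + 2) :=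
            Nat.mul_le_mul (Nat.sub_le _ _) (Nat.sub_le _ _)
        _ = q ^ (4 * m + 3) := by rw [← pow_add]; congr 1; ring
    have h3 : q ^ (m + 1) - 1 = (q ^ m - 1) + (q - 1) * q ^ m := by
      have h4 : 1 ≤ q ^ m := Nat.one_le_pow _ _ (by omega)
      have h5 : q ^ m ≤ q ^ (m + 1) := Nat.pow_le_pow_right (by omega) (by omega)
      have h6 : (q - 1) * q ^ m = q ^ (m + 1) - q ^ m := by
        rw [Nat.sub_mul, one_mul, pow_succ, mul_comm]
      omega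
    rw [h1, h3, pow_add 4]
    exact Nat.mul_le_mul ih (h2.trans (step_le hq hm))

/-- the exponent of two in `∏_{j ≤ 2m} (q ^ j - 1)` -/
theorem nu_pp_le {q : ℕ} (hq : 3 ≤ q) {m : ℕ} (hm : 1 ≤ m) : (PP q (2 * m)).factorization 2 ≤ 2 * (q ^ m - 1) := by
  have h1 : 2 ^ (PP q (2 * m)).factorization 2 ≤ PP q (2 * m) := Nat.ordProj_le 2 (pp_pos hq _).ne'
  have h2 : 2 ^ (PP q (2 * m)).factorization 2 ≤ 2 ^ (2 * (q ^ m - 1)) := by
    rw [pow_mul]
    exact h1.trans (pp_le hq m hm)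
  exact (Nat.pow_le_pow_iff_right (by norm_num)).1 h2

theorem prod_sub_eq (q n : ℕ) : ∏ i : Fin n, (q ^ n - q ^ (i : ℕ)) = (∏ i : Fin n, q ^ (i : ℕ)) * PP q n := by
  have h1 : PP q n = ∏ i : Fin n, (q ^ (n - (i : ℕ)) - 1) := by
    rw [PP, ← Finset.prod_range_reflect, Finset.prod_range]
    apply Finset.prod_congr rfl
    intro i _
    congr 2
    have := i.2
    omega
  rw [h1, ← Finset.prod_mul_distrib]
  apply Finset.prod_congr rfl
  intro i _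
  rw [Nat.mul_sub, mul_one, ← pow_add]
  congr 2
  have := i.2
  omega

/-- **the 2-part of the automorphism group of an elementary abelian `q`-group** -/
theorem nu_mulAut {V : Type*} [CommGroup V] {q m : ℕ} (hq : q.Prime) (hq2 : q ≠ 2) (hm : 1 ≤ m)
    (hpow : ∀ x : V, x ^ q = 1) (hc : Nat.card V = q ^ (2 * m)) :
    (Nat.card (MulAut V)).factorization 2 ≤ 2 * (q ^ m - 1) := by
  have : Fact q.Prime := ⟨hq⟩
  have hq3 : 3 ≤ q := by
    have := hq.two_le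
    omega
  obtain ⟨e⟩ := Cfsg.Agent.Lib.ElemAbGL.mulAut_equiv_GL (V := V) q (2 * m) hpow hc
  rw [Nat.card_congr e.toEquiv, Matrix.card_GL_field, ZMod.card, prod_sub_eq]
  have h1 : ∏ i : Fin (2 * m), q ^ (i : ℕ) ≠ 0 := Finset.prod_ne_zero_iff.2 fun i _ => pow_ne_zero _ hq.ne_zero
  rw [Nat.factorization_mul h1 (pp_pos hq3 _).ne', Finsupp.add_apply]
  have h2 : (∏ i : Fin (2 * m), q ^ (i : ℕ)).factorization 2 = 0 := by
    apply Nat.factorization_eq_zero_of_not_dvd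
    intro h
    obtain ⟨i, -, hi⟩ := (Prime.dvd_finsetProd_iff Nat.prime_two.prime _).1 h
    exact hq2 ((Nat.prime_dvd_prime_iff_eq Nat.prime_two hq).1 (Nat.prime_two.dvd_of_dvd_pow hi)).symm
  rw [h2, zero_add]
  exact nu_pp_le hq3 hm

/-- `ν₂(s) < s` -/
theorem nu_lt {s : ℕ} (hs : 1 ≤ s) : s.factorization 2 + 1 ≤ s := by
  have h1 : 2 ^ s.factorization 2 ≤ s := Nat.ordProj_le 2 (by omega)
  have h2 : s.factorization 2 < 2 ^ s.factorization 2 := Nat.lt_two_pow_self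
  omega

/-- `∑ (a - 1) ≤ ∏ a - 1` -/
theorem sum_sub_le {ι : Type*} [DecidableEq ι] (Q : Finset ι) (a : ι → ℕ) (h : ∀ i ∈ Q, 1 ≤ a i) :
    ∑ i ∈ Q, (a i - 1) ≤ ∏ i ∈ Q, a i - 1 := by
  induction Q using Finset.induction_on with
  | empty => simp
  | insert i Q hi ih =>
    rw [Finset.sum_insert hi, Finset.prod_insert hi]
    have h1 := ih fun j hj => h j (Finset.mem_insert_of_mem hj)
    have h2 := h i (Finset.mem_insert_self i Q)
    have h3 : 1 ≤ ∏ j ∈ Q, a j := Nat.one_le_iff_ne_zero.2 (Finset.prod_ne_zero_iff.2 fun j hj => by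
      have := h j (Finset.mem_insert_of_mem hj)
      omega)
    obtain ⟨x, hx⟩ : ∃ x, a i = x + 1 := ⟨a i - 1, by omega⟩
    obtain ⟨y, hy⟩ : ∃ y, ∏ j ∈ Q, a j = y + 1 := ⟨∏ j ∈ Q, a j - 1, by omega⟩
    rw [hy, Nat.add_sub_cancel] at h1
    have h4 : (x + 1) * (y + 1) = x * y + x + y + 1 := by ring
    rw [hx, hy, h4, Nat.add_sub_cancel, Nat.add_sub_cancel]
    have h5 := Nat.zero_le (x * y)
    omega

end Cfsg.Agent.H991.RC
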